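import Mathlib
import Cfsg.Agent.Characters.Core

/-!
# Eigenspaces of invariant kernels of permutation modules (helper725, S4795)

`irr` : if every invariant kernel acts as a scalar on the eigenspace of an invariant kernel, then the eigenspace is
an irreducible module. `finrank_eq` : the dimension from the traces.
-/

set_option autoImplicit false

namespace Cfsg.Agent.H725.Om

open Module Cfsg.Agent.Characters.Core

variable {G : Type*} [Group G] {X : Type*} [Fintype X] [MulAction G X]

/-- the permutation representation on functions -/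
noncomputable def permRep (G : Type*) [Group G] (X : Type*) [MulAction G X] : Representation ℂ G (X → ℂ) where
  toFun g := LinearMap.funLeft ℂ ℂ (fun x => g⁻¹ • x)
  map_one' := by
    ext φ x
    simp [LinearMap.funLeft_apply]
  map_mul' g h := by
    ext φ x
    simp [LinearMap.funLeft_apply, mul_smul]

omit [Fintype X] in
theorem permRep_apply (g : G) (φ : X → ℂ) (x : X) : permRep G X g φ x = φ (g⁻¹ • x) := rfl

/-- the eigenspace of a kernel -/
def eig (C : X → X → ℂ) (lam : ℂ) : Submodule ℂ (X → ℂ) where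
  carrier := {φ | ∀ x, ∑ y, C x y * φ y = lam * φ x}
  add_mem' := by
    intro φ ψ hφ hψ x
    simp only [Pi.add_apply, mul_add, Finset.sum_add_distrib]
    rw [hφ x, hψ x]
  zero_mem' := by
    intro x
    simp
  smul_mem' := by
    intro c φ hφ x
    simp only [Pi.smul_apply, smul_eq_mul]
    calc ∑ y, C x y * (c * φ y) = c * ∑ y, C x y * φ y := by
          rw [Finset.mul_sum]
          exact Finset.sum_congr rfl fun y _ => by ring
      _ = _ := by rw [hφ x]; ring

theorem mem_eig {C : X → X → ℂ} {lam : ℂ} {φ : X → ℂ} :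
    φ ∈ eig C lam ↔ ∀ x, ∑ y, C x y * φ y = lam * φ x := Iff.rfl

/-- invariance of a kernel -/
def Inv (G : Type*) [Group G] {X : Type*} [MulAction G X] (C : X → X → ℂ) : Prop :=
  ∀ (g : G) (x y : X), C (g • x) (g • y) = C x y

/-- the eigenspace as a subrepresentation -/
noncomputable def sub (C : X → X → ℂ) (hC : Inv G C) (lam : ℂ) : Subrepresentation (permRep G X) where
  toSubmodule := eig C lam
  apply_mem_toSubmodule := by
    intro g φ hφ x
    simp only [permRep_apply]
    rw [← hφ (g⁻¹ • x)]
    refine Fintype.sum_equiv (MulAction.toPerm g⁻¹) _ _ fun y => ?_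
    rw [MulAction.toPerm_apply, hC]

theorem irr [Finite G] {C : X → X → ℂ} (hC : Inv G C) {lam : ℂ}
    (hscal : ∀ K : X → X → ℂ, Inv G K → ∃ c : ℂ, ∀ φ ∈ eig C lam, ∀ x, ∑ y, K x y * φ y = c * φ x)
    (hne : eig C lam ≠ ⊥) : (sub C hC lam).toRepresentation.IsIrreducible := by
  classical
  set ρ := (sub C hC lam).toRepresentation with hρ
  have hnt : Nontrivial (Subrepresentation ρ) := by
    refine ⟨⊥, ⊤, fun h => hne ?_⟩
    have h1 : (⊥ : Submodule ℂ (sub C hC lam).toSubmodule) = ⊤ := congrArg Subrepresentation.toSubmodule h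
    rw [eq_bot_iff]
    intro φ hφ
    have h2 : (⟨φ, hφ⟩ : (sub C hC lam).toSubmodule) ∈ (⊤ : Submodule ℂ (sub C hC lam).toSubmodule) := trivial
    rw [← h1, Submodule.mem_bot] at h2
    rw [Submodule.mem_bot]
    exact congrArg Subtype.val h2
  refine ⟨fun U => ?_⟩
  -- `U` as a subrepresentation of the permutation representation
  let U' : Subrepresentation (permRep G X) :=
    { toSubmodule := U.toSubmodule.map (sub C hC lam).toSubmodule.subtype
      apply_mem_toSubmodule := by
        rintro g _ ⟨u, hu, rfl⟩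
        exact ⟨ρ g u, U.apply_mem_toSubmodule g hu, rfl⟩ }
  obtain ⟨W, hW⟩ := exists_isCompl_sub U'
  let P : (X → ℂ) →ₗ[ℂ] (X → ℂ) := U'.toSubmodule.subtype ∘ₗ Submodule.projectionOnto _ _ hW
  have hP1 : ∀ u ∈ U'.toSubmodule, P u = u := by
    intro u hu
    change ((Submodule.projectionOnto _ _ hW u : U'.toSubmodule) : X → ℂ) = u
    rw [Submodule.projectionOnto_apply_left hW ⟨u, hu⟩]
  have hP0 : ∀ w ∈ W.toSubmodule, P w = 0 := by
    intro w hw
    change ((Submodule.projectionOnto _ _ hW w : U'.toSubmodule) : X → ℂ) = 0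
    rw [(Submodule.projectionOnto_apply_eq_zero_iff hW).2 hw]
    rfl
  have hPm : ∀ φ, P φ ∈ U'.toSubmodule := fun φ => (Submodule.projectionOnto _ _ hW φ).2
  have hPg : ∀ (g : G) (φ : X → ℂ), P (permRep G X g φ) = permRep G X g (P φ) := by
    intro g φ
    have h1 : φ ∈ U'.toSubmodule ⊔ W.toSubmodule := by
      rw [hW.sup_eq_top]; trivial
    obtain ⟨u, hu, w, hw, rfl⟩ := Submodule.mem_sup.1 h1
    rw [map_add, map_add, map_add, hP1 _ (U'.apply_mem_toSubmodule g hu), hP0 _ (W.apply_mem_toSubmodule g hw),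
      hP1 u hu, hP0 w hw, add_zero, add_zero]
  let K : X → X → ℂ := fun x y => P (Pi.single y 1) x
  have hK : ∀ φ x, P φ x = ∑ y, K x y * φ y := by
    intro φ x
    have h1 : φ = ∑ y, φ y • (Pi.single y 1 : X → ℂ) := by
      ext x
      simp [Finset.sum_apply, Pi.single_apply]
    conv_lhs => rw [h1, map_sum, Finset.sum_apply]
    exact Finset.sum_congr rfl fun y _ => by
      rw [map_smul, Pi.smul_apply, smul_eq_mul, mul_comm]
  have hKi : Inv G K := by
    intro g x y
    have h1 : (Pi.single (g • y) 1 : X → ℂ) = permRep G X g (Pi.single y 1) := by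
      ext z
      rw [permRep_apply, Pi.single_apply, Pi.single_apply]
      have : z = g • y ↔ g⁻¹ • z = y := by
        constructor
        · rintro rfl; rw [inv_smul_smul]
        · rintro rfl; rw [smul_inv_smul]
      simp only [this]
    change P (Pi.single (g • y) 1) (g • x) = P (Pi.single y 1) x
    rw [h1, hPg, permRep_apply, inv_smul_smul]
  obtain ⟨c, hc⟩ := hscal K hKi
  by_cases hU : ∃ u : (sub C hC lam).toSubmodule, u ∈ U.toSubmodule ∧ u ≠ 0
  · right
    obtain ⟨u, hu, hu0⟩ := hU
    have hu' : (u : X → ℂ) ∈ U'.toSubmodule := ⟨u, hu, rfl⟩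
    have h1 : ∀ φ : (sub C hC lam).toSubmodule, P φ = c • (φ : X → ℂ) := by
      intro φ
      ext x
      rw [hK, hc φ φ.2 x]
      rfl
    have h2 : c = 1 := by
      have h3 := h1 u
      rw [hP1 _ hu'] at h3
      have h4 : (1 - c) • (u : X → ℂ) = 0 := by rw [sub_smul, one_smul, ← h3, sub_self]
      rcases smul_eq_zero.1 h4 with h5 | h5
      · exact (sub_eq_zero.1 h5).symm
      · exact absurd (Subtype.ext h5) hu0
    apply Subrepresentation.toSubmodule_injective
    change U.toSubmodule = ⊤
    rw [eq_top_iff]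
    intro φ _
    have h3 := hPm (φ : X → ℂ)
    rw [h1, h2, one_smul] at h3
    obtain ⟨φ', hφ', he⟩ := h3
    have : φ' = φ := Subtype.ext he
    rwa [← this]
  · left
    push Not at hU
    apply Subrepresentation.toSubmodule_injective
    change U.toSubmodule = ⊥
    rw [eq_bot_iff]
    intro u hu
    exact hU u hu

end Cfsg.Agent.H725.Om
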