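import Mathlib
import Cfsg.Agent.H725.Om.Perm

/-!
# Dimension of the eigenspace of a kernel (helper725, S4795)
-/

set_option autoImplicit false

namespace Cfsg.Agent.H725.Om

open Module

variable {X : Type*} [Fintype X] [DecidableEq X]

/-- dimension of an eigenspace from the traces -/
theorem finrank_eig {C : Matrix X X ℂ} {lam : ℂ} (h0 : lam ≠ 0) (h3 : C * C * C = lam ^ 2 • C) :
    2 * lam ^ 2 * (finrank ℂ (eig (fun x y => C x y) lam) : ℂ) = (C * C).trace + lam * C.trace := by
  set c : ℂ := (2 * lam ^ 2)⁻¹ with hc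
  have hc0 : 2 * lam ^ 2 ≠ 0 := mul_ne_zero two_ne_zero (pow_ne_zero 2 h0)
  let P : Matrix X X ℂ := c • (C * C + lam • C)
  have hCP : C * P = lam • P := by
    change C * (c • (C * C + lam • C)) = lam • (c • (C * C + lam • C))
    rw [Matrix.mul_smul, Matrix.mul_add, ← Matrix.mul_assoc, h3, Matrix.mul_smul, smul_comm lam c]
    congr 1
    rw [smul_add, smul_smul, ← pow_two lam, add_comm]
  have hproj : LinearMap.IsProj (eig (fun x y => C x y) lam) (Matrix.toLin' P) := by
    refine ⟨fun φ => ?_, fun φ hφ => ?_⟩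
    · rw [mem_eig]
      intro x
      have h1 : C.mulVec (P.mulVec φ) = lam • (P.mulVec φ) := by
        rw [Matrix.mulVec_mulVec, hCP, Matrix.smul_mulVec]
      exact congrFun h1 x
    · have h1 : C.mulVec φ = lam • φ := by
        ext x
        exact hφ x
      rw [Matrix.toLin'_apply]
      change (c • (C * C + lam • C)).mulVec φ = φ
      rw [Matrix.smul_mulVec, Matrix.add_mulVec, ← Matrix.mulVec_mulVec, h1, Matrix.mulVec_smul, h1,
        Matrix.smul_mulVec, h1, ← two_smul ℂ, smul_smul, smul_smul, smul_smul]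
      have h2 : c * (2 * (lam * lam)) = 1 := by
        rw [hc, ← pow_two, inv_mul_cancel₀ hc0]
      have h5 : c * 2 * lam * lam = 1 := by rw [← h2]; ring
      first
        | rw [h2, one_smul]
        | (rw [h5, one_smul])
  have h4 := hproj.trace
  rw [Matrix.trace_toLin'_eq] at h4
  rw [← h4]
  change _ * Matrix.trace (c • (C * C + lam • C)) = _
  rw [Matrix.trace_smul, Matrix.trace_add, Matrix.trace_smul, smul_eq_mul, smul_eq_mul, ← mul_assoc, hc,
    mul_inv_cancel₀ hc0, one_mul]

end Cfsg.Agent.H725.Om
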