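import Mathlib
import Cfsg.Agent.H725.Om.EtaKern
import Cfsg.Agent.H66.Cod.Defs
import Cfsg.Agent.H677.CodMultiset

/-!
# `Ω_{2n+1}(q)` has a nonprincipal irreducible character of degree at most `(q^{2n} - 1)/(q² - 1)`
(helper725, S4795)
-/

set_option autoImplicit false
set_option linter.unusedSectionVars false

namespace Cfsg.Agent.H725.Om

open QuadraticMap Cfsg.Agent.LieClassical.QuadForms Cfsg.Agent.LieClassical.OrthCore
open Cfsg.Agent.LieClassical.OrthTrans Module

/-- in dimension one, an endomorphism of trace one is the identity -/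
theorem eq_one_of_trace {V : Type*} [AddCommGroup V] [Module ℂ V] [FiniteDimensional ℂ V] (f : V →ₗ[ℂ] V)
    (h1 : finrank ℂ V = 1) (h : LinearMap.trace ℂ V f = 1) : f = 1 := by
  obtain ⟨v, hv, hw⟩ := finrank_eq_one_iff'.1 h1
  obtain ⟨c, hc⟩ := hw (f v)
  have hf : f = c • LinearMap.id := by
    ext w
    obtain ⟨a, rfl⟩ := hw w
    rw [map_smul, ← hc, LinearMap.smul_apply, LinearMap.id_apply, smul_comm]
  rw [hf, map_smul, LinearMap.trace_id, h1, smul_eq_mul, Nat.cast_one, mul_one] at h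
  rw [hf, h, one_smul]
  rfl

open Cfsg Cfsg.Agent.H686.CharKit Cfsg.Agent.Characters.Core in
/-- a module without fixed vectors has a nonprincipal irreducible constituent -/
theorem exists_constituent {G : Type*} [Group G] [Finite G] {V : Type*} [AddCommGroup V] [Module ℂ V]
    [FiniteDimensional ℂ V] [Nontrivial V] (ρ : Representation ℂ G V) (hinv : ∀ v : V, (∀ g, ρ g v = v) → v = 0) :
    ∃ χ : IrrCharacter G, charDegree (χ : G → ℂ) ≤ finrank ℂ V ∧ (χ : G → ℂ) ≠ 1 := by
  obtain ⟨U, hU⟩ := exists_irreducible_sub ρ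
  let σ := U.toRepresentation
  have hfd : FiniteDimensional ℂ U.toSubmodule := inferInstance
  let χ : IrrCharacter G := ⟨σ.character, isIrrCharacter_of_rep σ hU⟩
  have h1 : (χ : G → ℂ) 1 = (finrank ℂ U.toSubmodule : ℂ) := Representation.char_one σ
  have hdeg : charDegree (χ : G → ℂ) = finrank ℂ U.toSubmodule := by
    have h3 := charDegree_irr χ
    rw [h1] at h3
    exact Nat.cast_injective h3
  refine ⟨χ, by rw [hdeg]; exact Submodule.finrank_le _, fun h => ?_⟩
  have hχ1 : ∀ g : G, σ.character g = 1 := fun g => congrFun h g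
  have hd1 : finrank ℂ U.toSubmodule = 1 := by
    have h3 := hχ1 1
    have h4 : σ.character 1 = (finrank ℂ U.toSubmodule : ℂ) := h1
    rw [h4] at h3
    exact_mod_cast h3
  have hσ : ∀ g, σ g = 1 := fun g => eq_one_of_trace (σ g) hd1 (hχ1 g)
  have hnU : Nontrivial U.toSubmodule := Module.nontrivial_of_finrank_pos (R := ℂ) (by omega)
  obtain ⟨u, hu⟩ := exists_ne (0 : U.toSubmodule)
  apply hu
  apply Subtype.ext
  apply hinv
  intro g
  have h3 : σ g u = u := by rw [hσ]; rfl
  exact congrArg Subtype.val h3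

variable {F : Type*} [Field F] [Fintype F] [DecidableEq F]

section odd

variable (h2 : ringChar F ≠ 2)

include h2

theorem inv_CE {n : ℕ} : Inv (E (oddForm n F)) (fun v w : YY F n => CE v w) := by
  intro g v w
  change CE (g • v) (g • w) = CE v w
  rw [CE_apply, CE_apply, smul_val', smul_val', polar_map (E_le_O g.2)]

theorem fin_E' {n : ℕ} : Finite (E (oddForm n F)) := by
  have : Finite ((Unit ⊕ (Fin n ⊕ Fin n) → F) ≃ₗ[F] (Unit ⊕ (Fin n ⊕ Fin n) → F)) :=
    Finite.of_injective (fun g => (g : (Unit ⊕ (Fin n ⊕ Fin n) → F) → (Unit ⊕ (Fin n ⊕ Fin n) → F)))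
      DFunLike.coe_injective
  infer_instance

/-- homogeneity of the functions of the eigenspace -/
theorem hom_of_eig {m : ℕ} {φ : YY F (m + 1) → ℂ} (hφ : φ ∈ eig (fun v w : YY F (m + 1) => CE v w) (lam F m))
    {t : F} (ht : t ≠ 0) (v : YY F (m + 1)) : φ (sc t ht v) = eta t * φ v := by
  have h1 := hφ v
  have h3 := hφ (sc t ht v)
  have h4 : ∀ w : YY F (m + 1), (CE (sc t ht v) w : ℂ) = eta t * CE v w := by
    intro w
    rw [CE_apply, CE_apply]
    change eta (polar (oddForm (m + 1) F) (t • v.1) w.1) = _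
    rw [polar_smul_left, smul_eq_mul, eta_mul]
  simp only [h4] at h3
  have h5 : ∑ w : YY F (m + 1), eta t * CE v w * φ w = eta t * ∑ w : YY F (m + 1), CE v w * φ w := by
    rw [Finset.mul_sum]
    exact Finset.sum_congr rfl fun w _ => by ring
  rw [h5, h1] at h3
  apply mul_left_cancel₀ (lam_ne h2 m)
  rw [← h3]
  ring

open Cfsg Cfsg.Agent.H686.CharKit Cfsg.Agent.H677.CodMultiset Cfsg.Agent.Characters.Core in
theorem omega_deg_aux {m : ℕ} (hm : 1 ≤ m) :
    ∃ d, H66.Cod.NDeg (Cfsg.POmega F (quadFormOdd (m + 1) F)) d ∧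
      (Fintype.card F ^ 2 - 1) * d ≤ Fintype.card F ^ (2 * (m + 1)) - 1 := by
  have hG := good' (n := m + 1) h2 (by omega)
  have hfin : Finite (E (oddForm (m + 1) F)) := fin_E' h2
  have hq : 2 ≤ Fintype.card F := Fintype.one_lt_card
  let ρ := (sub (fun v w : YY F (m + 1) => CE v w) (inv_CE h2) (lam F m)).toRepresentation
  have hdim := finrank_YY h2 hm
  set D := finrank ℂ (eig (fun v w : YY F (m + 1) => CE v w) (lam F m)) with hD
  have hqp : 1 < Fintype.card F ^ (2 * (m + 1)) := Nat.one_lt_pow (by omega) hq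
  have hD1 : (Fintype.card F ^ 2 - 1) * D = Fintype.card F ^ (2 * (m + 1)) - 1 := by
    have h1 : (((Fintype.card F ^ 2 - 1) * D : ℕ) : ℂ) = ((Fintype.card F ^ (2 * (m + 1)) - 1 : ℕ) : ℂ) := by
      rw [Nat.cast_mul, Nat.cast_sub (Nat.one_le_pow _ _ (by omega)), Nat.cast_sub hqp.le]
      push_cast
      exact hdim
    exact Nat.cast_injective h1
  have hD0 : D ≠ 0 := by
    intro h
    rw [h, mul_zero] at hD1
    omega
  have hnt : Nontrivial (sub (fun v w : YY F (m + 1) => CE v w) (inv_CE h2) (lam F m)).toSubmodule := by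
    have h1 : Nontrivial (eig (fun v w : YY F (m + 1) => CE v w) (lam F m)) :=
      Module.nontrivial_of_finrank_pos (R := ℂ) (Nat.pos_of_ne_zero hD0)
    exact h1
  have hfd0 : FiniteDimensional ℂ (sub (fun v w : YY F (m + 1) => CE v w) (inv_CE h2) (lam F m)).toSubmodule :=
    inferInstance
  have hinv : ∀ u : (sub (fun v w : YY F (m + 1) => CE v w) (inv_CE h2) (lam F m)).toSubmodule,
      (∀ g, ρ g u = u) → u = 0 := by
    intro u hu
    let φ : YY F (m + 1) → ℂ := (u : YY F (m + 1) → ℂ)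
    have hφe : φ ∈ eig (fun v w : YY F (m + 1) => CE v w) (lam F m) := u.2
    have hφg : ∀ (g : E (oddForm (m + 1) F)) (v : YY F (m + 1)), φ (g • v) = φ v := by
      intro g v
      have h4 := congrArg (fun x : (sub (fun v w : YY F (m + 1) => CE v w) (inv_CE h2)
        (lam F m)).toSubmodule => (x : YY F (m + 1) → ℂ) v) (hu g⁻¹)
      change φ (g⁻¹⁻¹ • v) = φ v at h4
      rwa [inv_inv] at h4
    obtain ⟨t, ht⟩ := quadraticChar_exists_neg_one' h2
    have ht0 : (t : F) ≠ 0 := t.ne_zero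
    have het : eta (t : F) = -1 := by
      unfold eta
      rw [ht]
      norm_num
    apply Subtype.ext
    funext v
    change φ v = 0
    have h3 := hom_of_eig h2 hφe ht0 v
    have h4 : ∃ g ∈ E (oddForm (m + 1) F), g v.1 = (sc (t : F) ht0 v).1 :=
      hG.trans_norm v.2.1 (sc (t : F) ht0 v).2.1 (by rw [v.2.2, (sc (t : F) ht0 v).2.2])
    obtain ⟨g, hg, hgv⟩ := h4
    have h5 : (⟨g, hg⟩ : E (oddForm (m + 1) F)) • v = sc (t : F) ht0 v := Subtype.ext hgv
    have h6 := hφg ⟨g, hg⟩ v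
    rw [h5, h3, het] at h6
    linear_combination -h6 / 2
  obtain ⟨χ, hle, hχ1⟩ := exists_constituent ρ hinv
  have hle : charDegree (χ : E (oddForm (m + 1) F) → ℂ) ≤ D := hle
  set d := charDegree (χ : E (oddForm (m + 1) F) → ℂ) with hdeg
  -- the centre is trivial
  have hcen : Subgroup.center (E (oddForm (m + 1) F)) ≤ chKer χ := by
    intro z hz
    obtain ⟨c, hc⟩ := AutOrth.Gen.scalar_of_center hG hz
    have hc2 : c * c = 1 := by
      have h3 : oddForm (m + 1) F ((z : _ ≃ₗ[F] _) (e0 F (m + 1))) = 1 := by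
        rw [E_le_O z.2]; exact Q_e0 (m + 1)
      rw [hc, QuadraticMap.map_smul, Q_e0, smul_eq_mul, mul_one] at h3
      exact h3
    have hdet : LinearMap.det z.1.toLinearMap = 1 := by
      have h3 : (z : (Unit ⊕ (Fin (m + 1) ⊕ Fin (m + 1)) → F) ≃ₗ[F] _) ∈ ⁅E (oddForm (m + 1) F), E (oddForm (m + 1) F)⁆ := by
        rw [hG.E_perfect]
        exact z.2
      have h4 : ⁅E (oddForm (m + 1) F), E (oddForm (m + 1) F)⁆ ≤ (LinearEquiv.det (R := F)
          (M := Unit ⊕ (Fin (m + 1) ⊕ Fin (m + 1)) → F)).ker := by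
        rw [Subgroup.commutator_le]
        intro a _ b _
        rw [MonoidHom.mem_ker, map_commutatorElement, commutatorElement_eq_one_iff_mul_comm, mul_comm]
      have h5 := congrArg Units.val (MonoidHom.mem_ker.1 (h4 h3))
      rw [LinearEquiv.coe_det] at h5
      exact h5
    have hz1 : z.1.toLinearMap = c • LinearMap.id :=
      LinearMap.ext fun v => hc v
    have hc1 : c = 1 := by
      rw [hz1, LinearMap.det_smul, LinearMap.det_id, mul_one, Module.finrank_fintype_fun_eq_card] at hdet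
      have h5 : Fintype.card (Unit ⊕ (Fin (m + 1) ⊕ Fin (m + 1))) = 2 * (m + 1) + 1 := by
        simp only [Fintype.card_sum, Fintype.card_unit, Fintype.card_fin]
        ring
      rw [h5, pow_succ, pow_mul, pow_two, hc2, one_pow, one_mul] at hdet
      exact hdet
    have hz2 : z = 1 := by
      apply Subtype.ext
      ext1 v
      rw [hc, hc1, one_smul]
      rfl
    rw [hz2]
    exact (chKer χ).one_mem
  obtain ⟨ψ, hψ⟩ := exists_infl (Subgroup.center (E (oddForm (m + 1) F))) χ hcen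
  have hdψ : charDegree (ψ : (E (oddForm (m + 1) F)) ⧸ Subgroup.center (E (oddForm (m + 1) F)) → ℂ) = d := by
    rw [← charDegree_infl, hψ]
  rw [← coe_oddForm]
  let e := AutOrth.Main.pe hG
  let θ : IrrCharacter (Cfsg.POmega F (oddForm (m + 1) F)) := ⟨_, isIrr_comp e.toMonoidHom e.surjective ψ.2⟩
  have hθ : charDegree (θ : Cfsg.POmega F (oddForm (m + 1) F) → ℂ) = d := by
    rw [← hdψ]
    unfold charDegree
    have h3 : (θ : Cfsg.POmega F (oddForm (m + 1) F) → ℂ) 1 =
        (ψ : (E (oddForm (m + 1) F)) ⧸ Subgroup.center (E (oddForm (m + 1) F)) → ℂ) 1 := by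
      change (ψ : (E (oddForm (m + 1) F)) ⧸ Subgroup.center (E (oddForm (m + 1) F)) → ℂ) (e 1) = _
      rw [map_one]
    rw [h3]
  refine ⟨d, ⟨θ, fun h => ?_, hθ⟩, (Nat.mul_le_mul_left _ hle).trans hD1.le⟩
  -- nontriviality
  apply hχ1
  funext g
  have h3 := congrFun h (e.symm (QuotientGroup.mk g))
  have h4 : (ψ : (E (oddForm (m + 1) F)) ⧸ Subgroup.center (E (oddForm (m + 1) F)) → ℂ)
    (e (e.symm (QuotientGroup.mk g))) = 1 := h3
  rw [MulEquiv.apply_symm_apply] at h4
  have h5 : (infl (Subgroup.center (E (oddForm (m + 1) F))) ψ : E (oddForm (m + 1) F) → ℂ) g = 1 := by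
    rw [infl_apply]
    exact h4
  rw [hψ] at h5
  exact h5

end odd

/-- `Ω_{2n+1}(q)`, `q` odd, `n ≥ 2`, has a nonprincipal irreducible character of degree at most
`(q^{2n} - 1)/(q² - 1)` -/
theorem omega_deg {F : Type*} [Field F] [Fintype F] (h2 : (2 : F) ≠ 0) {n : ℕ} (hn : 2 ≤ n) :
    ∃ d, H66.Cod.NDeg (Cfsg.POmega F (Cfsg.quadFormOdd n F)) d ∧
      (Fintype.card F ^ 2 - 1) * d ≤ Fintype.card F ^ (2 * n) - 1 := by
  classical
  obtain ⟨m, rfl⟩ := Nat.exists_eq_add_of_le' (show 1 ≤ n by omega)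
  refine omega_deg_aux (fun h => h2 ?_) (by omega)
  have : CharP F 2 := by rw [← h]; infer_instance
  exact CharP.cast_eq_zero F 2

end Cfsg.Agent.H725.Om
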