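import Mathlib
import Cfsg.Agent.LieClassical.QuadForms
import Cfsg.Agent.LieClassical.OrthCore

/-!
# Exponential sums over the vectors of norm one, field of three elements (helper725, S4795)
-/

set_option autoImplicit false

namespace Cfsg.Agent.H725.Om

open QuadraticMap Cfsg.Agent.LieClassical.QuadForms Cfsg.Agent.LieClassical.OrthCore

variable {F : Type*} [Field F] [Fintype F]

section three

variable (h3 : Fintype.card F = 3)

include h3

theorem char3 : (3 : F) = 0 := by
  have h := Nat.cast_card_eq_zero (R := F)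
  rw [h3] at h
  exact_mod_cast h

theorem two_eq : (2 : F) = -1 := by
  linear_combination char3 h3

theorem one_ne_neg : (1 : F) ≠ -1 := by
  intro h
  have h1 : (1 : F) = 0 := by linear_combination char3 h3 - h
  exact one_ne_zero h1

theorem univ_eq [DecidableEq F] : (Finset.univ : Finset F) = {0, 1, -1} := by
  symm
  apply Finset.eq_univ_of_card
  rw [h3, Finset.card_eq_three]
  exact ⟨0, 1, -1, zero_ne_one, by simp, one_ne_neg h3, rfl⟩

theorem cases3 (a : F) : a = 0 ∨ a = 1 ∨ a = -1 := by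
  classical
  have h : a ∈ (Finset.univ : Finset F) := Finset.mem_univ a
  rw [univ_eq h3] at h
  simpa using h

theorem sum3 {M : Type*} [AddCommMonoid M] (f : F → M) : ∑ a, f a = f 0 + (f 1 + f (-1)) := by
  classical
  rw [univ_eq h3, Finset.sum_insert, Finset.sum_pair (one_ne_neg h3)]
  simp

variable {ψ : AddChar F ℂ} (hψ : ψ ≠ 1)

include hψ

theorem psi_one : 1 + (ψ 1 + ψ (-1)) = 0 := by
  have h := AddChar.sum_eq_zero_of_ne_one hψ
  rw [sum3 h3, AddChar.map_zero_eq_one] at h
  exact h

theorem psi_k {k : F} (hk : k ≠ 0) : 1 + ψ k + ψ (-k) = 0 := by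
  have h := psi_one h3 hψ
  rcases cases3 h3 k with rfl | rfl | rfl
  · exact absurd rfl hk
  · rw [← h]; ring
  · rw [neg_neg, ← h]; ring

end three

omit [Fintype F] in
theorem sum_lin {V : Type*} [AddCommGroup V] [Module F V] [Fintype V] {ψ : AddChar F ℂ} (hψ : ψ ≠ 1)
    {l : V →ₗ[F] F} (hl : l ≠ 0) : ∑ v, ψ (l v) = 0 := by
  have h1 : ψ.compAddMonoidHom l.toAddMonoidHom ≠ 1 := by
    intro h
    apply hψ
    obtain ⟨v, hv⟩ : ∃ v, l v ≠ 0 := by
      by_contra hcon
      push Not at hcon
      exact hl (LinearMap.ext hcon)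
    ext a
    have h2 := DFunLike.congr_fun h ((a * (l v)⁻¹) • v)
    rw [AddChar.compAddMonoidHom_apply] at h2
    change ψ (l ((a * (l v)⁻¹) • v)) = 1 at h2
    rw [map_smul, smul_eq_mul, mul_assoc, inv_mul_cancel₀ hv, mul_one] at h2
    rw [h2]
    rfl
  exact AddChar.sum_eq_zero_of_ne_one h1

/-- the function of the norm in the exponential sum -/
noncomputable def sg [DecidableEq F] (t : F) : ℂ := if t = 0 then 1 else if t = 1 then -1 else 0

section sums

variable (h3 : Fintype.card F = 3) {ψ : AddChar F ℂ} (hψ : ψ ≠ 1)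
  {V : Type*} [AddCommGroup V] [Module F V] [Fintype V] {Q : QuadraticForm F V}

include h3 in
theorem sum_sq {k : F} (hk : k ≠ 0) (x : V) :
    ∑ u, ψ (k * Q u + polar Q u x) = (∑ u, ψ (k * Q u)) * ψ (-(k * Q x)) := by
  have hkk : k * k = 1 := by
    rcases cases3 h3 k with rfl | rfl | rfl
    · exact absurd rfl hk
    · ring
    · ring
  rw [Finset.sum_mul, ← Equiv.sum_comp (Equiv.addRight (k • x)) (fun u => ψ (k * Q u) * ψ (-(k * Q x)))]
  refine Finset.sum_congr rfl fun u _ => ?_
  rw [Equiv.coe_addRight, ← AddChar.map_add_eq_mul, Q_add, QuadraticMap.map_smul, polar_smul_right, smul_eq_mul,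
    smul_eq_mul]
  congr 1
  linear_combination (-(polar Q u x) - k * Q x) * hkk

include h3 hψ in
theorem sum_k [DecidableEq F] (t : F) : ∑ k : F, ψ (k * t) = if t = 0 then 3 else 0 := by
  split_ifs with h
  · subst h
    simp only [mul_zero, AddChar.map_zero_eq_one, Finset.sum_const, Finset.card_univ, h3]
    norm_num
  · have h1 := sum_lin hψ (l := LinearMap.toSpanSingleton F F t) (fun h2 => h (by
      have := LinearMap.congr_fun h2 1
      simpa using this))
    simpa [smul_eq_mul] using h1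

include h3 hψ in
theorem S_eq [DecidableEq F] {n : ℕ} (hV : Fintype.card V = 3 ^ (2 * n + 1))
    (hg : ∀ k : F, k ≠ 0 → ∑ u, ψ (k * Q u) = 3 ^ n * (1 + 2 * ψ k))
    {x : V} (hx : x ≠ 0 → ∃ u, polar Q u x ≠ 0) [Decidable (x = 0)] :
    ∑ u, (if Q u = 1 then ψ (polar Q u x) else 0) = 9 ^ n * (if x = 0 then 1 else 0) + 3 ^ n * sg (Q x) := by
  have h1 : 3 * ∑ u, (if Q u = 1 then ψ (polar Q u x) else 0) =
      ∑ k : F, ψ (-k) * ∑ u, ψ (k * Q u + polar Q u x) := by
    rw [Finset.mul_sum]
    simp only [Finset.mul_sum]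
    rw [Finset.sum_comm]
    refine Finset.sum_congr rfl fun u _ => ?_
    have h2 : ∑ k : F, ψ (-k) * ψ (k * Q u + polar Q u x) = (∑ k : F, ψ (k * (Q u - 1))) * ψ (polar Q u x) := by
      rw [Finset.sum_mul]
      refine Finset.sum_congr rfl fun k _ => ?_
      rw [← AddChar.map_add_eq_mul, ← AddChar.map_add_eq_mul]
      congr 1
      ring
    rw [h2, sum_k h3 hψ]
    by_cases h : Q u = 1
    · rw [if_pos h, if_pos (by rw [h, sub_self])]
    · rw [if_neg h, if_neg (fun h' => h (sub_eq_zero.1 h'))]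
      ring
  have hz : ∑ u, ψ (0 * Q u + polar Q u x) = 3 * (9 ^ n * (if x = 0 then 1 else 0)) := by
    split_ifs with h
    · subst h
      simp only [zero_mul, polar_zero_right, add_zero, AddChar.map_zero_eq_one, Finset.sum_const,
        Finset.card_univ, hV]
      rw [nsmul_eq_mul]
      push_cast
      rw [pow_succ, pow_mul]
      norm_num
      ring
    · simp only [zero_mul, zero_add, mul_zero]
      obtain ⟨u, hu⟩ := hx h
      refine sum_lin hψ (l := (polarBilin Q).flip x) (fun h2 => hu ?_)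
      have := LinearMap.congr_fun h2 u
      simpa using this
  rw [sum3 h3, hz, sum_sq h3 one_ne_zero, sum_sq h3 (neg_ne_zero.2 one_ne_zero), hg 1 one_ne_zero,
    hg (-1) (neg_ne_zero.2 one_ne_zero)] at h1
  have key : ψ (-1) * (3 ^ n * (1 + 2 * ψ 1) * ψ (-(1 * Q x))) +
      ψ (-(-1)) * (3 ^ n * (1 + 2 * ψ (-1)) * ψ (-(-1 * Q x))) = 3 * (3 ^ n * sg (Q x)) := by
    have hp := psi_one h3 hψ
    have e1 : ψ 1 * ψ (-1) = 1 := by
      rw [← AddChar.map_add_eq_mul, add_neg_cancel, AddChar.map_zero_eq_one]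
    have e2 : ψ 1 * ψ 1 = ψ (-1) := by
      rw [← AddChar.map_add_eq_mul]
      congr 1
      linear_combination char3 h3
    have e3 : ψ (-1) * ψ (-1) = ψ 1 := by
      rw [← AddChar.map_add_eq_mul]
      congr 1
      linear_combination -char3 h3
    unfold sg
    rcases cases3 h3 (Q x) with h | h | h
    · rw [h, if_pos rfl, mul_zero, mul_zero, neg_zero, AddChar.map_zero_eq_one, neg_neg]
      linear_combination 3 ^ n * hp + 4 * 3 ^ n * e1
    · rw [h, if_neg one_ne_zero, if_pos rfl, mul_one, mul_one, neg_neg]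
      linear_combination 3 ^ n * (e3 + e2 + 2 * ψ (-1) * e1 + 2 * ψ 1 * e1 + 3 * hp)
    · rw [h, if_neg (neg_ne_zero.2 one_ne_zero), if_neg (one_ne_neg h3).symm, neg_neg, one_mul, neg_mul_neg,
        one_mul, neg_neg]
      linear_combination 3 ^ n * (2 * e1 + 2 * ψ (-1) * e1 + 2 * ψ 1 * e1 + 2 * hp)
  rw [neg_zero, AddChar.map_zero_eq_one, one_mul, key] at h1
  linear_combination h1 / 3

end sums

section forms

variable (h3 : Fintype.card F = 3) {ψ : AddChar F ℂ} (hψ : ψ ≠ 1)

omit [Fintype F] in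
/-- the linear function `y ↦ k ∑ xᵢ yᵢ` -/
def lin {n : ℕ} (k : F) (x : Fin n → F) : (Fin n → F) →ₗ[F] F where
  toFun y := k * ∑ i, x i * y i
  map_add' y z := by
    simp only [Pi.add_apply, mul_add, Finset.sum_add_distrib]
  map_smul' c y := by
    simp only [Pi.smul_apply, smul_eq_mul, RingHom.id_apply]
    simp only [Finset.mul_sum]
    exact Finset.sum_congr rfl fun i _ => by ring

include h3 hψ in
theorem sum_plus {n : ℕ} {k : F} (hk : k ≠ 0) : ∑ h : Fin n ⊕ Fin n → F, ψ (k * plusForm n F h) = 3 ^ n := by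
  classical
  rw [← (Equiv.sumArrowEquivProdArrow (Fin n) (Fin n) F).symm.sum_comp, Fintype.sum_prod_type]
  have h1 : ∀ x : Fin n → F, ∑ y : Fin n → F,
      ψ (k * plusForm n F ((Equiv.sumArrowEquivProdArrow (Fin n) (Fin n) F).symm (x, y))) =
      if x = 0 then 3 ^ n else 0 := by
    intro x
    have h2 : ∀ y : Fin n → F,
        k * plusForm n F ((Equiv.sumArrowEquivProdArrow (Fin n) (Fin n) F).symm (x, y)) = lin k x y := by
      intro y
      rw [plusForm_apply]
      rfl
    simp only [h2]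
    split_ifs with h
    · have h4 : ∀ y : Fin n → F, lin k x y = 0 := by
        intro y
        change k * ∑ i, x i * y i = 0
        rw [h]
        simp
      simp only [h4, AddChar.map_zero_eq_one, Finset.sum_const, Finset.card_univ, Fintype.card_fun,
        Fintype.card_fin, h3]
      rw [nsmul_eq_mul, mul_one]
      push_cast
      rfl
    · apply sum_lin hψ
      intro h4
      apply h
      ext i
      have h5 := LinearMap.congr_fun h4 (Pi.single i 1)
      change k * ∑ j, x j * (Pi.single i 1 : Fin n → F) j = 0 at h5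
      rw [Finset.sum_eq_single i] at h5
      · rw [Pi.single_eq_same, mul_one] at h5
        exact (mul_eq_zero.1 h5).resolve_left hk
      · intro j _ hj
        rw [Pi.single_eq_of_ne hj, mul_zero]
      · intro h6
        exact absurd (Finset.mem_univ i) h6
  rw [Finset.sum_congr rfl fun x _ => h1 x, Finset.sum_ite_eq' Finset.univ 0]
  simp

include h3 hψ in
theorem sum_odd {n : ℕ} {k : F} (hk : k ≠ 0) :
    ∑ u : Unit ⊕ (Fin n ⊕ Fin n) → F, ψ (k * oddForm n F u) = 3 ^ n * (1 + 2 * ψ k) := by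
  classical
  rw [← (Equiv.sumArrowEquivProdArrow Unit (Fin n ⊕ Fin n) F).symm.sum_comp, Fintype.sum_prod_type]
  have h1 : ∀ (x : Unit → F) (y : Fin n ⊕ Fin n → F),
      ψ (k * oddForm n F ((Equiv.sumArrowEquivProdArrow Unit (Fin n ⊕ Fin n) F).symm (x, y))) =
      ψ (k * (x () * x ())) * ψ (k * plusForm n F y) := by
    intro x y
    rw [← AddChar.map_add_eq_mul, ← mul_add]
    rfl
  simp only [h1]
  simp only [← Finset.mul_sum, sum_plus h3 hψ hk]
  rw [← Finset.sum_mul, ← (Equiv.funUnique Unit F).symm.sum_comp]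
  have h2 : ∀ a : F, (Equiv.funUnique Unit F).symm a () = a := fun a => rfl
  simp only [h2]
  rw [sum3 h3, mul_zero, mul_zero, AddChar.map_zero_eq_one, mul_one, mul_one, neg_mul_neg, mul_one, mul_one]
  ring

end forms

end Cfsg.Agent.H725.Om
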