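import Mathlib
import Cfsg.Agent.AutOrth.Main
import Cfsg.Agent.H725.Om.Gauss

/-!
# Transitivity on the pairs of vectors of norm one (helper725, S4795)
-/

set_option autoImplicit false

namespace Cfsg.Agent.H725.Om

open QuadraticMap Cfsg.Agent.LieClassical.QuadForms Cfsg.Agent.LieClassical.OrthCore
open Cfsg.Agent.LieClassical.OrthTrans

variable {F : Type*} [Field F]

theorem odd_elim {n : ℕ} (a : Unit → F) (h : Fin n ⊕ Fin n → F) :
    oddForm n F (Sum.elim a h) = a () * a () + plusForm n F h := rfl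

theorem polar_elim {n : ℕ} (a b : Unit → F) (h k : Fin n ⊕ Fin n → F) :
    polar (oddForm n F) (Sum.elim a h) (Sum.elim b k) = 2 * (a () * b ()) + polar (plusForm n F) h k :=
  polar_oddForm n _ _

theorem lift {n : ℕ} {g : (Fin n ⊕ Fin n → F) ≃ₗ[F] (Fin n ⊕ Fin n → F)} (hg : g ∈ E (plusForm n F)) :
    ∃ g' ∈ E (oddForm n F), ∀ (a : Unit → F) (h : Fin n ⊕ Fin n → F),
      g' (Sum.elim a h) = Sum.elim a (g h) := by
  induction hg using Subgroup.closure_induction with
  | mem x hx =>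
    obtain ⟨u, w, hu, hw, rfl⟩ := hx
    have hu' : oddForm n F (Sum.elim 0 u) = 0 := by
      rw [odd_elim, hu]
      simp
    have hw' : polar (oddForm n F) (Sum.elim 0 u) (Sum.elim 0 w) = 0 := by
      rw [polar_elim, hw]
      simp
    refine ⟨siegel (oddForm n F) (Sum.elim 0 u) (Sum.elim 0 w) hu' hw', siegel_mem_E hu' hw', fun a h => ?_⟩
    rw [siegel_apply, siegel_apply, polar_elim, polar_elim, odd_elim]
    ext i
    rcases i with i | i
    · simp
    · simp
  | one => exact ⟨1, (E (oddForm n F)).one_mem, fun a h => rfl⟩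
  | mul x y _ _ hx hy =>
    obtain ⟨x', hx', hx1⟩ := hx
    obtain ⟨y', hy', hy1⟩ := hy
    refine ⟨x' * y', (E (oddForm n F)).mul_mem hx' hy', fun a h => ?_⟩
    change x' (y' (Sum.elim a h)) = Sum.elim a (x (y h))
    rw [hy1, hx1]
  | inv x _ hx =>
    obtain ⟨x', hx', hx1⟩ := hx
    refine ⟨x'⁻¹, (E (oddForm n F)).inv_mem hx', fun a h => ?_⟩
    have h1 := hx1 a (x⁻¹ h)
    have h2 : x (x⁻¹ h) = h := LinearEquiv.apply_symm_apply x h
    rw [h2] at h1
    rw [← h1]
    exact LinearEquiv.symm_apply_apply x' _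

variable [Fintype F] (h3 : Fintype.card F = 3)

/-- the base vector -/
def e0 (F : Type*) [Field F] (n : ℕ) : Unit ⊕ (Fin n ⊕ Fin n) → F := Sum.elim 1 0

omit [Fintype F] in
theorem Q_e0 (n : ℕ) : oddForm n F (e0 F n) = 1 := by
  rw [e0, odd_elim]
  simp

omit [Fintype F] in
theorem ne_zero_of_norm {n : ℕ} {v : Unit ⊕ (Fin n ⊕ Fin n) → F} (hv : oddForm n F v = 1) : v ≠ 0 := by
  rintro rfl
  rw [map_zero] at hv
  exact zero_ne_one hv

include h3 in
theorem good {n : ℕ} (hn : 3 ≤ n) : Good (oddForm n F) :=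
  AutOrth.Main.good_odd (by omega) (by rw [two_eq h3]; exact neg_ne_zero.2 one_ne_zero)

include h3 in
theorem trans_one {n : ℕ} (hn : 3 ≤ n) {v v' : Unit ⊕ (Fin n ⊕ Fin n) → F} (hv : oddForm n F v = 1)
    (hv' : oddForm n F v' = 1) : ∃ g ∈ E (oddForm n F), g v = v' :=
  (good h3 hn).trans_norm (ne_zero_of_norm hv) (ne_zero_of_norm hv') (by rw [hv, hv'])

include h3 in
theorem trans_base {n : ℕ} (hn : 3 ≤ n) {w w' : Unit ⊕ (Fin n ⊕ Fin n) → F} (hw : oddForm n F w = 1)
    (hw' : oddForm n F w' = 1) (h1 : w ≠ e0 F n) (h2 : w ≠ -e0 F n) (h1' : w' ≠ e0 F n) (h2' : w' ≠ -e0 F n)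
    (hp : polar (oddForm n F) (e0 F n) w = polar (oddForm n F) (e0 F n) w') :
    ∃ g ∈ E (oddForm n F), g (e0 F n) = e0 F n ∧ g w = w' := by
  have key : ∀ w : Unit ⊕ (Fin n ⊕ Fin n) → F, oddForm n F w = 1 → w ≠ e0 F n → w ≠ -e0 F n →
      ∃ (a : Unit → F) (h : Fin n ⊕ Fin n → F), w = Sum.elim a h ∧ h ≠ 0 := by
    intro w hw h1 h2
    refine ⟨fun i => w (.inl i), fun i => w (.inr i), by
      ext i; rcases i with i | i <;> rfl, fun h => ?_⟩
    have h5 : w = Sum.elim (fun i => w (.inl i)) (0 : Fin n ⊕ Fin n → F) := by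
      rw [← h]
      ext i; rcases i with i | i <;> rfl
    rw [h5, odd_elim, map_zero, add_zero] at hw
    rcases cases3 h3 (w (.inl ())) with h6 | h6 | h6
    · rw [h6] at hw
      simp at hw
    · apply h1
      rw [h5, e0]
      congr 1
      ext i
      exact h6
    · apply h2
      rw [h5, e0]
      ext i
      rcases i with i | i
      · exact h6
      · simp
  obtain ⟨a, h, rfl, hh⟩ := key w hw h1 h2
  obtain ⟨a', h', rfl, hh'⟩ := key w' hw' h1' h2'
  rw [e0, polar_elim, polar_elim] at hp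
  have ha : a = a' := by
    ext i
    have h5 : (2 : F) * ((1 : Unit → F) () * a ()) = 2 * ((1 : Unit → F) () * a' ()) := by
      simpa using hp
    rw [two_eq h3, Pi.one_apply, one_mul, one_mul] at h5
    linear_combination -h5
  subst ha
  rw [odd_elim] at hw hw'
  obtain ⟨g, hg, hgh⟩ := (AutOrth.Main.good_plus (F := F) hn).trans_norm hh hh' (by linear_combination hw - hw')
  obtain ⟨g', hg', hg1⟩ := lift hg
  refine ⟨g', hg', ?_, ?_⟩
  · rw [e0, hg1, map_zero]
  · rw [hg1, hgh]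

include h3 in
theorem trans_two {n : ℕ} (hn : 3 ≤ n) {v w v' w' : Unit ⊕ (Fin n ⊕ Fin n) → F} (hv : oddForm n F v = 1)
    (hw : oddForm n F w = 1) (hv' : oddForm n F v' = 1)
    (hw' : oddForm n F w' = 1) (h1 : w ≠ v) (h2 : w ≠ -v) (h1' : w' ≠ v') (h2' : w' ≠ -v')
    (hp : polar (oddForm n F) v w = polar (oddForm n F) v' w') :
    ∃ g ∈ E (oddForm n F), g v = v' ∧ g w = w' := by
  obtain ⟨a, ha, hav⟩ := trans_one h3 hn hv (Q_e0 n)
  obtain ⟨b, hb, hbv⟩ := trans_one h3 hn hv' (Q_e0 n)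
  have hO : ∀ g ∈ E (oddForm n F), ∀ x, oddForm n F (g x) = oddForm n F x := fun g hg => E_le_O hg
  have hP : ∀ g ∈ E (oddForm n F), ∀ x y, polar (oddForm n F) (g x) (g y) = polar (oddForm n F) x y :=
    fun g hg => polar_map (E_le_O hg)
  obtain ⟨g, hg, hg1, hg2⟩ := trans_base h3 hn (w := a w) (w' := b w') (by rw [hO a ha, hw]) (by rw [hO b hb, hw'])
    (by rw [← hav]; exact fun h => h1 (a.injective h))
    (by rw [← hav, ← map_neg]; exact fun h => h2 (a.injective h))
    (by rw [← hbv]; exact fun h => h1' (b.injective h))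
    (by rw [← hbv, ← map_neg]; exact fun h => h2' (b.injective h))
    (by rw [← hav, hP a ha, hp, hav, ← hbv, hP b hb])
  refine ⟨b⁻¹ * (g * a), (E _).mul_mem ((E _).inv_mem hb) ((E _).mul_mem hg ha), ?_, ?_⟩
  · change b.symm (g (a v)) = v'
    rw [hav, hg1, ← hbv, LinearEquiv.symm_apply_apply]
  · change b.symm (g (a w)) = w'
    rw [hg2, LinearEquiv.symm_apply_apply]

end Cfsg.Agent.H725.Om
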