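import Mathlib
import Cfsg.Agent.H725.Om.Trans
import Cfsg.Agent.H725.Om.Dim

/-!
# The kernel on the vectors of norm one (helper725, S4795)
-/

set_option autoImplicit false
set_option linter.unusedSectionVars false

namespace Cfsg.Agent.H725.Om

open QuadraticMap Cfsg.Agent.LieClassical.QuadForms Cfsg.Agent.LieClassical.OrthCore
open Cfsg.Agent.LieClassical.OrthTrans

/-- the vectors of norm one -/
def XX (F : Type*) [Field F] (n : ℕ) : Type _ := {v : Unit ⊕ (Fin n ⊕ Fin n) → F // oddForm n F v = 1}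

variable {F : Type*} [Field F] {n : ℕ}

instance : MulAction (E (oddForm n F)) (XX F n) where
  smul g v := ⟨(g : _ ≃ₗ[F] _) v.1, by rw [E_le_O g.2]; exact v.2⟩
  one_smul v := rfl
  mul_smul g h v := rfl

theorem smul_val (g : E (oddForm n F)) (v : XX F n) : (g • v).1 = (g : _ ≃ₗ[F] _) v.1 := rfl

/-- minus a vector -/
instance : Neg (XX F n) where
  neg v := ⟨-v.1, by rw [QuadraticMap.map_neg]; exact v.2⟩

theorem neg_val (v : XX F n) : (-v).1 = -v.1 := rfl

theorem neg_neg' (v : XX F n) : - -v = v := Subtype.ext (neg_neg v.1)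

variable [Fintype F] [DecidableEq F]

instance : Fintype (XX F n) := inferInstanceAs (Fintype {v : Unit ⊕ (Fin n ⊕ Fin n) → F // oddForm n F v = 1})

instance : DecidableEq (XX F n) :=
  inferInstanceAs (DecidableEq {v : Unit ⊕ (Fin n ⊕ Fin n) → F // oddForm n F v = 1})

/-- the function of the kernel -/
def ee (b : F) : ℂ := if b = 0 then 2 else -1

/-- the kernel -/
def CC : Matrix (XX F n) (XX F n) ℂ := fun v w => ee (polar (oddForm n F) v.1 w.1)

theorem CC_apply (v w : XX F n) : (CC v w : ℂ) = ee (polar (oddForm n F) v.1 w.1) := rfl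

theorem sum_XX (f : (Unit ⊕ (Fin n ⊕ Fin n) → F) → ℂ) :
    ∑ u : XX F n, f u.1 = ∑ u, if oddForm n F u = 1 then f u else 0 := by
  rw [← Finset.sum_filter]
  exact (Finset.sum_subtype (p := fun v => oddForm n F v = 1) _ (by simp) f).symm

section three

variable (h3 : Fintype.card F = 3)

include h3

theorem exists_psi : ∃ ψ : AddChar F ℂ, ψ ≠ 1 := by
  refine ⟨AddChar.FiniteField.primitiveChar_to_Complex F, fun h => ?_⟩
  have h1 := AddChar.FiniteField.primitiveChar_to_Complex_isPrimitive F (one_ne_zero (α := F))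
  rw [h] at h1
  apply h1
  ext x
  simp

theorem ee_eq {ψ : AddChar F ℂ} (hψ : ψ ≠ 1) (b : F) : ee b = ψ b + ψ (-b) := by
  unfold ee
  split_ifs with h
  · rw [h, neg_zero, AddChar.map_zero_eq_one]
    norm_num
  · linear_combination -psi_k h3 hψ h

theorem ee_mul (a b : F) : ee a * ee b = ee (a + b) + ee (a - b) := by
  obtain ⟨ψ, hψ⟩ := exists_psi h3
  rw [ee_eq h3 hψ, ee_eq h3 hψ, ee_eq h3 hψ, ee_eq h3 hψ, AddChar.map_add_eq_mul, sub_eq_add_neg, neg_add,
    AddChar.map_add_eq_mul, AddChar.map_add_eq_mul, neg_add, neg_neg, AddChar.map_add_eq_mul]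
  ring

theorem sum_ee (hn : 3 ≤ n) (x : Unit ⊕ (Fin n ⊕ Fin n) → F) :
    ∑ u : XX F n, ee (polar (oddForm n F) u.1 x) = 2 * (9 ^ n * (if x = 0 then 1 else 0) + 3 ^ n * sg (oddForm n F x)) := by
  obtain ⟨ψ, hψ⟩ := exists_psi h3
  have hV : Fintype.card (Unit ⊕ (Fin n ⊕ Fin n) → F) = 3 ^ (2 * n + 1) := by
    rw [Fintype.card_fun, h3]
    congr 1
    simp only [Fintype.card_sum, Fintype.card_unit, Fintype.card_fin]
    ring
  have hnd : ∀ x : Unit ⊕ (Fin n ⊕ Fin n) → F, x ≠ 0 → ∃ u, polar (oddForm n F) u x ≠ 0 := by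
    intro x hx
    by_contra hcon
    push Not at hcon
    apply hx
    exact (good h3 hn).nondeg x fun y => by rw [polar_comm]; exact hcon y
  have hS : ∀ x : Unit ⊕ (Fin n ⊕ Fin n) → F, ∑ u : XX F n, ψ (polar (oddForm n F) u.1 x) =
      9 ^ n * (if x = 0 then 1 else 0) + 3 ^ n * sg (oddForm n F x) := by
    intro x
    rw [sum_XX (fun u => ψ (polar (oddForm n F) u x))]
    exact S_eq h3 hψ hV (fun k hk => sum_odd h3 hψ hk) (hnd x)
  have h1 : ∀ u : XX F n, ee (polar (oddForm n F) u.1 x) =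
      ψ (polar (oddForm n F) u.1 x) + ψ (polar (oddForm n F) u.1 (-x)) := by
    intro u
    rw [ee_eq h3 hψ, polar_neg_right]
  rw [Finset.sum_congr rfl fun u _ => h1 u, Finset.sum_add_distrib, hS, hS, QuadraticMap.map_neg]
  have h2 : (-x = 0) ↔ (x = 0) := neg_eq_zero
  simp only [h2]
  ring

theorem polar_self_one (v : XX F n) : polar (oddForm n F) v.1 v.1 = -1 := by
  rw [polar_self', v.2, mul_one, two_eq h3]

/-- the square of the kernel -/
theorem CC_sq (hn : 3 ≤ n) (v w : XX F n) :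
    (CC * CC : Matrix (XX F n) (XX F n) ℂ) v w = (2 * 9 ^ n * ((if w = v then 1 else 0) + (if w = -v then 1 else 0)) : ℂ) := by
  rw [Matrix.mul_apply]
  have h1 : ∀ u : XX F n, (CC v u : ℂ) * CC u w =
      ee (polar (oddForm n F) u.1 (v.1 + w.1)) + ee (polar (oddForm n F) u.1 (v.1 - w.1)) := by
    intro u
    rw [CC_apply, CC_apply, ee_mul h3, polar_comm _ v.1 u.1, ← polar_add_right, ← polar_sub_right]
  rw [Finset.sum_congr rfl fun u _ => h1 u, Finset.sum_add_distrib, sum_ee h3 hn, sum_ee h3 hn]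
  have h2 : v.1 + w.1 = 0 ↔ w = -v := by
    rw [add_comm, add_eq_zero_iff_eq_neg]
    exact ⟨fun h => Subtype.ext h, fun h => by rw [h]; rfl⟩
  have h4 : v.1 - w.1 = 0 ↔ w = v := by
    rw [sub_eq_zero]
    exact ⟨fun h => Subtype.ext h.symm, fun h => by rw [h]⟩
  have h5 : oddForm n F (v.1 + w.1) = -1 + polar (oddForm n F) v.1 w.1 := by
    rw [Q_add, v.2, w.2]
    linear_combination char3 h3
  have h6 : oddForm n F (v.1 - w.1) = -1 - polar (oddForm n F) v.1 w.1 := by
    rw [sub_eq_add_neg, Q_add, QuadraticMap.map_neg, polar_neg_right, v.2, w.2]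
    linear_combination char3 h3
  have h7 : sg (oddForm n F (v.1 + w.1)) + sg (oddForm n F (v.1 - w.1)) = 0 := by
    rw [h5, h6]
    have hm1 : sg (-1 : F) = 0 := by
      unfold sg
      rw [if_neg (neg_ne_zero.2 one_ne_zero), if_neg (one_ne_neg h3).symm]
    have hz : sg (0 : F) = 1 := by
      unfold sg
      rw [if_pos rfl]
    have h1' : sg (1 : F) = -1 := by
      unfold sg
      rw [if_neg one_ne_zero, if_pos rfl]
    rcases cases3 h3 (polar (oddForm n F) v.1 w.1) with h | h | h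
    · rw [h, add_zero, sub_zero, hm1, add_zero]
    · rw [h, neg_add_cancel, hz, show (-1 - 1 : F) = 1 by linear_combination -char3 h3, h1']
      ring
    · rw [h, show (-1 + -1 : F) = 1 by linear_combination -char3 h3, h1', sub_self, hz]
      ring
  simp only [h2, h4]
  linear_combination 2 * 3 ^ n * h7

theorem ee_neg (b : F) : ee (-b) = ee b := by
  obtain ⟨ψ, hψ⟩ := exists_psi h3
  rw [ee_eq h3 hψ, ee_eq h3 hψ, neg_neg, add_comm]

theorem CC_neg (v w : XX F n) : (CC (-v) w : ℂ) = CC v w := by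
  rw [CC_apply, CC_apply, neg_val, polar_neg_left, ee_neg h3]

/-- the cube of the kernel -/
theorem CC_cube (hn : 3 ≤ n) : (CC * CC * CC : Matrix (XX F n) (XX F n) ℂ) = (2 * 3 ^ n : ℂ) ^ 2 • CC := by
  ext v w
  rw [Matrix.mul_apply, Matrix.smul_apply, smul_eq_mul]
  have h1 : ∀ u : XX F n, (CC * CC : Matrix (XX F n) (XX F n) ℂ) v u * CC u w =
      2 * 9 ^ n * ((if u = v then CC u w else 0) + (if u = -v then CC u w else 0)) := by
    intro u
    rw [CC_sq h3 hn]
    split_ifs <;> ring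
  rw [Finset.sum_congr rfl fun u _ => h1 u, ← Finset.mul_sum, Finset.sum_add_distrib, Finset.sum_ite_eq',
    Finset.sum_ite_eq', if_pos (Finset.mem_univ _), if_pos (Finset.mem_univ _), CC_neg h3]
  have : (9 : ℂ) ^ n = 3 ^ n * 3 ^ n := by rw [← mul_pow]; norm_num
  rw [this]
  ring

theorem card_XX (hn : 3 ≤ n) : (Fintype.card (XX F n) : ℂ) = 9 ^ n + 3 ^ n := by
  have h := sum_ee h3 hn (0 : Unit ⊕ (Fin n ⊕ Fin n) → F)
  simp only [polar_zero_right, if_true, map_zero] at h
  have h1 : ee (0 : F) = 2 := by unfold ee; rw [if_pos rfl]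
  have hz : sg (0 : F) = 1 := by
    unfold sg
    rw [if_pos rfl]
  rw [h1, hz, Finset.sum_const, Finset.card_univ, nsmul_eq_mul] at h
  linear_combination h / 2

theorem ne_neg (v : XX F n) : v ≠ -v := by
  intro h
  have h1 : v.1 = -v.1 := congrArg Subtype.val h
  have h2 := v.2
  have h4 : (2 : F) • v.1 = 0 := by
    rw [two_smul]
    nth_rw 2 [h1]
    rw [add_neg_cancel]
  have h5 : v.1 = 0 := by
    rw [two_eq h3, neg_smul, one_smul, neg_eq_zero] at h4
    exact h4
  rw [h5, map_zero] at h2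
  exact zero_ne_one h2

/-- the dimension of the eigenspace -/
theorem finrank_XX (hn : 3 ≤ n) :
    (4 * Module.finrank ℂ (eig (fun v w : XX F n => CC v w) (2 * 3 ^ n)) : ℂ) = 9 ^ n - 1 := by
  have h0 : (2 * 3 ^ n : ℂ) ≠ 0 := mul_ne_zero two_ne_zero (pow_ne_zero n three_ne_zero)
  have h1 := finrank_eig h0 (CC_cube h3 hn (F := F) (n := n))
  have h2 : (CC * CC : Matrix (XX F n) (XX F n) ℂ).trace = 2 * 9 ^ n * (9 ^ n + 3 ^ n) := by
    rw [Matrix.trace]
    simp only [Matrix.diag_apply]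
    have h4 : ∀ v : XX F n, (CC * CC : Matrix (XX F n) (XX F n) ℂ) v v = 2 * 9 ^ n := by
      intro v
      rw [CC_sq h3 hn, if_pos rfl, if_neg (ne_neg h3 v)]
      ring
    rw [Finset.sum_congr rfl fun v _ => h4 v, Finset.sum_const, Finset.card_univ, nsmul_eq_mul, card_XX h3 hn]
    ring
  have h4 : (CC : Matrix (XX F n) (XX F n) ℂ).trace = -(9 ^ n + 3 ^ n) := by
    rw [Matrix.trace]
    simp only [Matrix.diag_apply]
    have h5 : ∀ v : XX F n, (CC v v : ℂ) = -1 := by
      intro v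
      rw [CC_apply, polar_self_one h3]
      unfold ee
      rw [if_neg (neg_ne_zero.2 one_ne_zero)]
    rw [Finset.sum_congr rfl fun v _ => h5 v, Finset.sum_const, Finset.card_univ, nsmul_eq_mul, card_XX h3 hn]
    ring
  rw [h2, h4] at h1
  have h9 : (9 : ℂ) ^ n = 3 ^ n * 3 ^ n := by rw [← mul_pow]; norm_num
  have h30 : (3 : ℂ) ^ n ≠ 0 := pow_ne_zero n three_ne_zero
  have h6 : (2 * (3 ^ n) ^ 2 : ℂ) * (4 * Module.finrank ℂ (eig (fun v w : XX F n => CC v w) (2 * 3 ^ n))) =
      (2 * (3 ^ n) ^ 2) * (9 ^ n - 1) := by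
    rw [h9] at h1 ⊢
    linear_combination h1
  exact mul_left_cancel₀ (mul_ne_zero two_ne_zero (pow_ne_zero 2 h30)) h6

end three

end Cfsg.Agent.H725.Om
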