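import Mathlib
import Cfsg.Agent.H725.Om.Kern
import Cfsg.Agent.H66.Cod.Defs
import Cfsg.Agent.H677.CodMultiset

/-!
# `Ω_{2n+1}(3)` has an irreducible character of degree `(9^n - 1)/4` (helper725, S4795)
-/

set_option autoImplicit false
set_option linter.unusedSectionVars false

namespace Cfsg.Agent.H725.Om

open QuadraticMap Cfsg.Agent.LieClassical.QuadForms Cfsg.Agent.LieClassical.OrthCore
open Cfsg.Agent.LieClassical.OrthTrans

variable {F : Type*} [Field F] {n : ℕ} [Fintype F] [DecidableEq F]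

/-- an odd function -/
def oo (b : F) : ℂ := if b = 0 then 0 else if b = 1 then 1 else -1

section three

variable (h3 : Fintype.card F = 3)

include h3

theorem oo_zero : oo (0 : F) = 0 := by
  unfold oo; rw [if_pos rfl]

theorem oo_one : oo (1 : F) = 1 := by
  unfold oo; rw [if_neg one_ne_zero, if_pos rfl]

theorem oo_neg_one : oo (-1 : F) = -1 := by
  unfold oo; rw [if_neg (neg_ne_zero.2 one_ne_zero), if_neg (one_ne_neg h3).symm]

theorem oo_neg (b : F) : oo (-b) = - oo b := by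
  rcases cases3 h3 b with rfl | rfl | rfl
  · rw [neg_zero, oo_zero h3, neg_zero]
  · rw [oo_neg_one h3, oo_one h3]
  · rw [neg_neg, oo_neg_one h3, oo_one h3, neg_neg]

theorem ee_zero : ee (0 : F) = 2 := by
  unfold ee; rw [if_pos rfl]

theorem ee_one : ee (1 : F) = -1 := by
  unfold ee; rw [if_neg one_ne_zero]

theorem ee_neg_one : ee (-1 : F) = -1 := by
  unfold ee; rw [if_neg (neg_ne_zero.2 one_ne_zero)]

/-- the eigenspace consists of even functions -/
theorem even_of_eig {φ : XX F n → ℂ} (hφ : φ ∈ eig (fun v w : XX F n => CC v w) (2 * 3 ^ n)) (v : XX F n) :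
    φ (-v) = φ v := by
  have h1 := hφ v
  have h2 := hφ (-v)
  simp only [CC_neg h3] at h2
  have h0 : (2 * 3 ^ n : ℂ) ≠ 0 := mul_ne_zero two_ne_zero (pow_ne_zero n three_ne_zero)
  exact mul_left_cancel₀ h0 (h2.symm.trans h1)

/-- the eigenspace is orthogonal to the constants -/
theorem sum_of_eig (hn : 3 ≤ n) {φ : XX F n → ℂ} (hφ : φ ∈ eig (fun v w : XX F n => CC v w) (2 * 3 ^ n)) :
    ∑ v, φ v = 0 := by
  have h1 : ∑ v : XX F n, ∑ w : XX F n, CC v w * φ w = 2 * 3 ^ n * ∑ v, φ v := by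
    rw [Finset.mul_sum]
    exact Finset.sum_congr rfl fun v _ => hφ v
  have h2 : ∑ v : XX F n, ∑ w : XX F n, CC v w * φ w = -(2 * 3 ^ n) * ∑ v, φ v := by
    rw [Finset.sum_comm, Finset.mul_sum]
    refine Finset.sum_congr rfl fun w _ => ?_
    rw [← Finset.sum_mul]
    have h4 : ∑ v : XX F n, (CC v w : ℂ) = -(2 * 3 ^ n) := by
      simp only [CC_apply]
      rw [sum_ee h3 hn, w.2, if_neg (ne_zero_of_norm w.2)]
      have h1' : sg (1 : F) = -1 := by
        unfold sg
        rw [if_neg one_ne_zero, if_pos rfl]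
      rw [h1']
      ring
    rw [h4]
  have h0 : (2 * 3 ^ n : ℂ) ≠ 0 := mul_ne_zero two_ne_zero (pow_ne_zero n three_ne_zero)
  rw [h1] at h2
  have h5 : (2 * (2 * 3 ^ n) : ℂ) * ∑ v, φ v = 0 := by linear_combination h2
  exact (mul_eq_zero.1 h5).resolve_left (mul_ne_zero two_ne_zero h0)

theorem odd_sum {φ : XX F n → ℂ} (hφ : ∀ v, φ (-v) = φ v) (v : XX F n) :
    ∑ w : XX F n, oo (polar (oddForm n F) v.1 w.1) * φ w = 0 := by
  let σ : XX F n ≃ XX F n := ⟨fun w => -w, fun w => -w, neg_neg', neg_neg'⟩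
  have h1 := σ.sum_comp (fun w : XX F n => oo (polar (oddForm n F) v.1 w.1) * φ w)
  have h2 : ∀ w : XX F n, oo (polar (oddForm n F) v.1 (σ w).1) * φ (σ w) =
      -(oo (polar (oddForm n F) v.1 w.1) * φ w) := by
    intro w
    change oo (polar (oddForm n F) v.1 (-w).1) * φ (-w) = _
    rw [neg_val, polar_neg_right, oo_neg h3, hφ]
    ring
  rw [Finset.sum_congr rfl fun w _ => h2 w, Finset.sum_neg_distrib] at h1
  linear_combination -h1 / 2

/-- invariant kernels are scalar on the eigenspace -/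
theorem scal (hn : 3 ≤ n) (K : XX F n → XX F n → ℂ) (hK : Inv (E (oddForm n F)) K) :
    ∃ c : ℂ, ∀ φ ∈ eig (fun v w : XX F n => CC v w) (2 * 3 ^ n), ∀ v, ∑ w, K v w * φ w = c * φ v := by
  classical
  let e : XX F n := ⟨e0 F n, Q_e0 n⟩
  have ha : ∀ v, K v v = K e e := by
    intro v
    obtain ⟨g, hg, h⟩ := trans_one h3 hn e.2 v.2
    have h1 := hK ⟨g, hg⟩ e e
    have h2 : (⟨g, hg⟩ : E (oddForm n F)) • e = v := Subtype.ext h
    rw [h2] at h1
    exact h1
  have ha' : ∀ v, K v (-v) = K e (-e) := by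
    intro v
    obtain ⟨g, hg, h⟩ := trans_one h3 hn e.2 v.2
    have h1 := hK ⟨g, hg⟩ e (-e)
    have h2 : (⟨g, hg⟩ : E (oddForm n F)) • e = v := Subtype.ext h
    have h4 : (⟨g, hg⟩ : E (oddForm n F)) • (-e) = -v := Subtype.ext (by
      rw [smul_val, neg_val, neg_val]
      change g (-e.1) = -v.1
      rw [map_neg, h])
    rw [h2, h4] at h1
    exact h1
  obtain ⟨κ, hκ⟩ : ∃ κ : F → ℂ, ∀ v w : XX F n, w ≠ v → w ≠ -v → K v w = κ (polar (oddForm n F) v.1 w.1) := by
    have key : ∀ b : F, ∃ c : ℂ, ∀ v w : XX F n, w ≠ v → w ≠ -v → polar (oddForm n F) v.1 w.1 = b → K v w = c := by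
      intro b
      by_cases hb : ∃ v w : XX F n, w ≠ v ∧ w ≠ -v ∧ polar (oddForm n F) v.1 w.1 = b
      · obtain ⟨v, w, h1, h2, h4⟩ := hb
        refine ⟨K v w, fun v' w' h1' h2' h4' => ?_⟩
        obtain ⟨g, hg, h5, h6⟩ := trans_two h3 hn v.2 w.2 v'.2 w'.2 (fun h => h1 (Subtype.ext h))
          (fun h => h2 (Subtype.ext h)) (fun h => h1' (Subtype.ext h)) (fun h => h2' (Subtype.ext h))
          (h4.trans h4'.symm)
        have h7 := hK ⟨g, hg⟩ v w
        have h8 : (⟨g, hg⟩ : E (oddForm n F)) • v = v' := Subtype.ext h5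
        have h9 : (⟨g, hg⟩ : E (oddForm n F)) • w = w' := Subtype.ext h6
        rw [h8, h9] at h7
        exact h7
      · exact ⟨0, fun v w h1 h2 h4 => absurd ⟨v, w, h1, h2, h4⟩ hb⟩
    choose κ hκ using key
    exact ⟨κ, fun v w h1 h2 => hκ _ v w h1 h2 rfl⟩
  let γ : ℂ := (κ 1 - κ (-1)) / 2
  let β : ℂ := (κ 0 - (κ 1 + κ (-1)) / 2) / 3
  let δ : ℂ := κ 0 - 2 * β
  have hdec : ∀ b : F, κ b = δ + β * ee b + γ * oo b := by
    intro b
    rcases cases3 h3 b with rfl | rfl | rfl
    · rw [ee_zero h3, oo_zero h3]; simp only [δ, β, γ]; ring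
    · rw [ee_one h3, oo_one h3]; simp only [δ, β, γ]; ring
    · rw [ee_neg_one h3, oo_neg_one h3]; simp only [δ, β, γ]; ring
  let A : ℂ := K e e - (δ - β - γ)
  let A' : ℂ := K e (-e) - (δ - β + γ)
  have hK2 : ∀ v w : XX F n, K v w = A * (if w = v then 1 else 0) + A' * (if w = -v then 1 else 0) +
      (δ + β * CC v w + γ * oo (polar (oddForm n F) v.1 w.1)) := by
    intro v w
    by_cases h1 : w = v
    · subst h1
      rw [if_pos rfl, if_neg (ne_neg h3 w), ha, CC_apply, polar_self_one h3, ee_neg_one h3, oo_neg_one h3]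
      simp only [A]
      ring
    · by_cases h2 : w = -v
      · subst h2
        rw [if_neg h1, if_pos rfl, ha', CC_apply, neg_val, polar_neg_right, polar_self_one h3, neg_neg, ee_one h3,
          oo_one h3]
        simp only [A']
        ring
      · rw [if_neg h1, if_neg h2, hκ v w h1 h2, hdec, CC_apply]
        ring
  refine ⟨A + A' + β * (2 * 3 ^ n), fun φ hφ v => ?_⟩
  have he := even_of_eig h3 hφ
  have h4 : ∀ w : XX F n, K v w * φ w = A * (if w = v then φ w else 0) + A' * (if w = -v then φ w else 0) +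
      (δ * φ w + β * (CC v w * φ w) + γ * (oo (polar (oddForm n F) v.1 w.1) * φ w)) := by
    intro w
    rw [hK2]
    split_ifs <;> ring
  rw [Finset.sum_congr rfl fun w _ => h4 w, Finset.sum_add_distrib, Finset.sum_add_distrib, Finset.sum_add_distrib,
    Finset.sum_add_distrib, ← Finset.mul_sum, ← Finset.mul_sum, ← Finset.mul_sum, ← Finset.mul_sum,
    ← Finset.mul_sum, Finset.sum_ite_eq', Finset.sum_ite_eq', if_pos (Finset.mem_univ _),
    if_pos (Finset.mem_univ _), sum_of_eig h3 hn hφ, odd_sum h3 he v, he v, hφ v]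
  ring

theorem inv_CC : Inv (E (oddForm n F)) (fun v w : XX F n => CC v w) := by
  intro g v w
  change CC (g • v) (g • w) = CC v w
  rw [CC_apply, CC_apply, smul_val, smul_val, polar_map (E_le_O g.2)]

theorem fin_E : Finite (E (oddForm n F)) := by
  have : Finite ((Unit ⊕ (Fin n ⊕ Fin n) → F) ≃ₗ[F] (Unit ⊕ (Fin n ⊕ Fin n) → F)) :=
    Finite.of_injective (fun g => (g : (Unit ⊕ (Fin n ⊕ Fin n) → F) → (Unit ⊕ (Fin n ⊕ Fin n) → F)))
      DFunLike.coe_injective
  infer_instance

/-- the eigenspace is irreducible -/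
theorem irr_XX (hn : 3 ≤ n) :
    (sub (fun v w : XX F n => CC v w) (inv_CC h3) (2 * 3 ^ n)).toRepresentation.IsIrreducible := by
  have hfin : Finite (E (oddForm n F)) := fin_E h3
  refine irr (inv_CC h3) (scal h3 hn) fun h => ?_
  have h1 := finrank_XX (F := F) h3 hn
  rw [h, finrank_bot] at h1
  have h2 : (9 : ℂ) ^ n = 1 := by linear_combination -h1
  have h4 : (9 : ℕ) ^ n = 1 := by exact_mod_cast h2
  have h5 : 1 < 9 ^ n := Nat.one_lt_pow (by omega) (by norm_num)
  omega

open Cfsg Cfsg.Agent.H686.CharKit Cfsg.Agent.H677.CodMultiset Cfsg.Agent.Characters.Core in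
theorem om_deg_aux (hn : 3 ≤ n) : ∃ d, H66.Cod.NDeg (Cfsg.POmega F (quadFormOdd n F)) d ∧ 4 * d = 9 ^ n - 1 := by
  have hG := good h3 hn
  have hfin : Finite (E (oddForm n F)) := fin_E h3
  let ρ := (sub (fun v w : XX F n => CC v w) (inv_CC h3) (2 * 3 ^ n)).toRepresentation
  have hirr : ρ.IsIrreducible := irr_XX h3 hn
  let χ : IrrCharacter (E (oddForm n F)) := ⟨ρ.character, isIrrCharacter_of_rep ρ hirr⟩
  have hdim := finrank_XX (F := F) h3 hn
  set d := Module.finrank ℂ (eig (fun v w : XX F n => CC v w) (2 * 3 ^ n)) with hd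
  have hd4 : 4 * d = 9 ^ n - 1 := by
    have h1 : 1 ≤ 9 ^ n := Nat.one_le_pow _ _ (by norm_num)
    have h2 : ((4 * d + 1 : ℕ) : ℂ) = ((9 ^ n : ℕ) : ℂ) := by
      push_cast
      rw [hdim]
      ring
    have h4 : 4 * d + 1 = 9 ^ n := Nat.cast_injective h2
    omega
  have h1 : (χ : E (oddForm n F) → ℂ) 1 = d := Representation.char_one ρ
  have hdeg : charDegree (χ : E (oddForm n F) → ℂ) = d := by
    have h2 := charDegree_irr χ
    rw [h1] at h2
    exact Nat.cast_injective h2
  -- the centre acts trivially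
  have hcen : Subgroup.center (E (oddForm n F)) ≤ chKer χ := by
    intro z hz
    obtain ⟨c, hc⟩ := AutOrth.Gen.scalar_of_center hG hz
    have hρ : ρ z = 1 := by
      ext φ
      have hcc : c = 1 ∨ c = -1 := by
        have h2 : oddForm n F ((z : _ ≃ₗ[F] _) (e0 F n)) = 1 := by
          rw [E_le_O z.2]; exact Q_e0 n
        rw [hc, QuadraticMap.map_smul, Q_e0, smul_eq_mul, mul_one] at h2
        rcases cases3 h3 c with h4 | h4 | h4
        · rw [h4, mul_zero] at h2
          exact absurd h2 zero_ne_one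
        · exact Or.inl h4
        · exact Or.inr h4
      have he := even_of_eig h3 φ.2
      have hz' : ∀ v : XX F n, z⁻¹ • v = v ∨ z⁻¹ • v = -v := by
        intro v
        rcases hcc with rfl | rfl
        · left
          rw [inv_smul_eq_iff]
          apply Subtype.ext
          rw [smul_val, hc, one_smul]
        · right
          rw [inv_smul_eq_iff]
          apply Subtype.ext
          rw [smul_val, hc, neg_val, smul_neg, neg_smul, one_smul, neg_neg]
      change (permRep (E (oddForm n F)) (XX F n) z φ.1) _ = φ.1 _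
      rw [permRep_apply]
      rcases hz' _ with h | h
      · rw [h]
      · rw [h]; exact he _
    rw [mem_chKer]
    change ρ.character z = ρ.character 1
    unfold Representation.character
    rw [hρ, map_one ρ]
  obtain ⟨ψ, hψ⟩ := exists_infl (Subgroup.center (E (oddForm n F))) χ hcen
  have hdψ : charDegree (ψ : (E (oddForm n F)) ⧸ Subgroup.center (E (oddForm n F)) → ℂ) = d := by
    rw [← charDegree_infl, hψ, hdeg]
  rw [← coe_oddForm]
  let e := AutOrth.Main.pe hG
  let θ : IrrCharacter (Cfsg.POmega F (oddForm n F)) := ⟨_, isIrr_comp e.toMonoidHom e.surjective ψ.2⟩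
  have hθ : charDegree (θ : Cfsg.POmega F (oddForm n F) → ℂ) = d := by
    rw [← hdψ]
    unfold charDegree
    have h2 : (θ : Cfsg.POmega F (oddForm n F) → ℂ) 1 =
        (ψ : (E (oddForm n F)) ⧸ Subgroup.center (E (oddForm n F)) → ℂ) 1 := by
      change (ψ : (E (oddForm n F)) ⧸ Subgroup.center (E (oddForm n F)) → ℂ) (e 1) = _
      rw [map_one]
    rw [h2]
  refine ⟨d, ⟨θ, fun h => ?_, hθ⟩, hd4⟩
  have h2 : charDegree (θ : Cfsg.POmega F (oddForm n F) → ℂ) = 1 := by
    rw [h]
    unfold charDegree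
    simp
  rw [hθ] at h2
  have h4 : 9 ^ 3 ≤ 9 ^ n := Nat.pow_le_pow_right (by norm_num) hn
  omega

end three

/-- `Ω_{2n+1}(3)` has an irreducible character of degree `(9^n - 1)/4`, `n ≥ 3` -/
theorem om_deg {F : Type*} [Field F] [Fintype F] (hF : Fintype.card F = 3) {n : ℕ} (hn : 3 ≤ n) :
    ∃ d, H66.Cod.NDeg (Cfsg.POmega F (Cfsg.quadFormOdd n F)) d ∧ 4 * d = 9 ^ n - 1 := by
  classical
  exact om_deg_aux hF hn

end Cfsg.Agent.H725.Om
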